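import Cfsg.Agent.KnownB.SpDerived.Wreath
import Cfsg.Agent.Forms.SylowTwoSymp

/-! Derived length of a Sylow 2-subgroup of the symplectic group in odd characteristic. -/

set_option autoImplicit false
set_option maxHeartbeats 800000

namespace Cfsg.Agent.KnownB.SpDerived

open Cfsg.Agent.Forms
open scoped commutatorElement

theorem quaternion_derived (k : ℕ) (hk : 1 ≤ k) :
    derivedSeries (QuaternionGroup (2 ^ k)) 1 ≠ ⊥ ∧ derivedSeries (QuaternionGroup (2 ^ k)) 2 = ⊥ := by
  haveI : NeZero (2 ^ k) := ⟨by positivity⟩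
  constructor
  · intro h
    rw [derivedSeries_one] at h
    have h2 := sqComm_quaternion k hk (QuaternionGroup.a 1)
    rw [h, Subgroup.mem_bot, QuaternionGroup.a_one_pow, QuaternionGroup.one_def] at h2
    have h4 : ((2 : ℕ) : ZMod (2 * 2 ^ k)) = 0 := QuaternionGroup.a.inj h2
    rw [ZMod.natCast_eq_zero_iff] at h4
    have h5 := Nat.le_of_dvd two_pos h4
    have h6 : 2 ≤ 2 ^ k := Nat.le_self_pow (by omega) 2
    omega
  · let par : QuaternionGroup (2 ^ k) →* Multiplicative (ZMod 2) :=
      { toFun := fun x => match x with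
          | QuaternionGroup.a _ => 1
          | QuaternionGroup.xa _ => Multiplicative.ofAdd 1
        map_one' := rfl
        map_mul' := fun x y => by
          rcases x with i | i <;> rcases y with j | j <;>
            simp only [QuaternionGroup.a_mul_a, QuaternionGroup.a_mul_xa, QuaternionGroup.xa_mul_a,
              QuaternionGroup.xa_mul_xa, one_mul, mul_one] <;> decide }
    have hker : derivedSeries (QuaternionGroup (2 ^ k)) 1 ≤ par.ker := by
      rw [derivedSeries_one, commutator_def, Subgroup.commutator_le]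
      intro x _ y _
      rw [MonoidHom.mem_ker, map_commutatorElement, commutatorElement_eq_one_iff_mul_comm]
      exact mul_comm _ _
    rw [derivedSeries_succ, eq_bot_iff, Subgroup.commutator_le]
    intro x hx y hy
    rw [Subgroup.mem_bot, commutatorElement_eq_one_iff_mul_comm]
    have key : ∀ z ∈ derivedSeries (QuaternionGroup (2 ^ k)) 1, ∃ i, z = QuaternionGroup.a i := by
      intro z hz
      have hz' := MonoidHom.mem_ker.mp (hker hz)
      rcases z with i | i
      · exact ⟨i, rfl⟩
      · exact absurd (show Multiplicative.ofAdd (1 : ZMod 2) = 1 from hz') (by decide)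
    obtain ⟨i, rfl⟩ := key x hx
    obtain ⟨j, rfl⟩ := key y hy
    rw [QuaternionGroup.a_mul_a, QuaternionGroup.a_mul_a, add_comm]

theorem derived_iso {G H : Type*} [Group G] [Group H] (e : G ≃* H) (j : ℕ) :
    derivedSeries G j = ⊥ ↔ derivedSeries H j = ⊥ := by
  rw [← map_derivedSeries_eq (f := e.toMonoidHom) e.surjective, Subgroup.map_eq_bot_iff_of_injective _ e.injective]

/-- The derived length. -/
theorem derived_length {F : Type*} [Field F] [Fintype F] {q : ℕ} (hF : Fintype.card F = q) (hq : Odd q)
    (n : ℕ) (hn : 1 ≤ n) (R : Sylow 2 ↥(Matrix.symplecticGroup (Fin n) F)) :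
    derivedSeries ↥(R : Subgroup ↥(Matrix.symplecticGroup (Fin n) F)) (Nat.log 2 n + 2) = ⊥ ∧
      derivedSeries ↥(R : Subgroup ↥(Matrix.symplecticGroup (Fin n) F)) (Nat.log 2 n + 1) ≠ ⊥ := by
  classical
  haveI := Fact.mk Nat.prime_two
  obtain ⟨p, hp, hcp⟩ : ∃ p, p.Prime ∧ CharP F p := ⟨ringChar F, CharP.char_is_prime F _, inferInstance⟩
  haveI := Fact.mk hp
  have hq2 : q % 2 = 1 := Nat.odd_iff.1 hq
  have hp2 : p ≠ 2 := by
    rintro rfl
    obtain ⟨m, -, hm⟩ := FiniteField.card F 2
    rw [hF] at hm
    rw [hm, Nat.pow_mod] at hq2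
    simp at hq2
  have hq1 : 1 < q := hF ▸ Fintype.one_lt_card
  haveI : Finite (Matrix.symplecticGroup (Fin n) F) := inferInstance
  obtain ⟨D⟩ : Nonempty (Sylow 2 (Matrix.SpecialLinearGroup (Fin 2) F)) := inferInstance
  obtain ⟨k, hk, ⟨e⟩⟩ := Linear.sylow_two_SL2 p hp2 D
  set Ds : Subgroup (Matrix.SpecialLinearGroup (Fin 2) F) := D.toSubgroup with hDs
  have hD2 : derivedSeries Ds 2 = ⊥ := (derived_iso e 2).mpr (quaternion_derived k hk).2
  obtain ⟨T, hTcard, -⟩ := exists_sylow_perm_gen n
  constructor
  · have hinj := spBlockHom_injective Ds T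
    have hne : ∀ m, ∏ i ∈ Finset.range m, (q ^ (2 * (i + 1)) - 1) ≠ 0 := fun m =>
      Finset.prod_ne_zero_iff.2 fun i _ => by
        have := Nat.one_lt_pow (show 2 * (i + 1) ≠ 0 by omega) hq1
        omega
    have hvq : padicValNat 2 q = 0 := padicValNat.eq_zero_of_not_dvd (by omega)
    have hcard : Nat.card (spBlockHom Ds T).range =
        2 ^ (Nat.card (Matrix.symplecticGroup (Fin n) F)).factorization 2 := by
      rw [← Nat.card_congr (MonoidHom.ofInjective hinj).toEquiv, card_semidirect, Nat.card_fun,
        hDs, D.card_eq_multiplicity, hTcard, Nat.card_fin, ← pow_mul, ← pow_add,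
        Nat.factorization_def _ Nat.prime_two, Nat.factorization_def _ Nat.prime_two,
        card_symplecticGroup hF n, Linear.card_SL_two, Nat.card_eq_fintype_card (α := F) |>.symm,
        Nat.card_eq_fintype_card, hF, padicValNat.mul (pow_ne_zero _ (by omega)) (hne n),
        val_prod_sq_pow_sub_one hq hq1, padicValNat.mul (by omega) (by
          have := Nat.one_lt_pow two_ne_zero hq1
          omega), padicValNat.pow, hvq]
      ring
    let P₀ : Sylow 2 (Matrix.symplecticGroup (Fin n) F) := Sylow.ofCard _ hcard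
    set W := (Fin n → Ds) ⋊[powAct Ds T] T
    have hW : derivedSeries W (Nat.log 2 n + 2) = ⊥ := by
      let π : W →* T := SemidirectProduct.rightHom
      have hT : derivedSeries T (Nat.log 2 n) = ⊥ := by
        rw [Subgroup.eq_bot_iff_forall]
        intro g hg
        refine Subtype.ext (Equiv.ext fun x => ?_)
        have hTp : IsPGroup 2 T := IsPGroup.of_card hTcard
        obtain ⟨j, hj⟩ := hTp.card_orbit x
        have hjk : j ≤ Nat.log 2 n := Nat.le_log_of_pow_le one_lt_two (by
          rw [← hj]; exact (Finite.card_subtype_le _).trans_eq (Nat.card_fin n))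
        exact Cfsg.Agent.S4014.fixes _ hTp x (hj ▸ pow_dvd_pow 2 hjk) g hg
      have hstep : ∀ j, derivedSeries W (Nat.log 2 n + j) ≤
          (derivedSeries (Fin n → Ds) j).map SemidirectProduct.inl := by
        intro j
        induction j with
        | zero =>
          intro g hg
          have h1 : π g ∈ derivedSeries T (Nat.log 2 n) :=
            map_derivedSeries_le_derivedSeries π _ (Subgroup.mem_map_of_mem π hg)
          rw [hT, Subgroup.mem_bot] at h1
          exact ⟨g.left, Subgroup.mem_top _, SemidirectProduct.ext rfl h1.symm⟩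
        | succ j ih =>
          rw [← add_assoc, derivedSeries_succ, derivedSeries_succ, Subgroup.map_commutator]
          exact Subgroup.commutator_mono ih ih
      have hbase : derivedSeries (Fin n → Ds) 2 = ⊥ := by
        rw [Subgroup.eq_bot_iff_forall]
        intro f hf
        funext i
        have := map_derivedSeries_le_derivedSeries (Pi.evalMonoidHom (fun _ : Fin n => Ds) i) 2
          (Subgroup.mem_map_of_mem _ hf)
        rw [hD2, Subgroup.mem_bot] at this
        exact this
      exact le_bot_iff.mp ((hstep 2).trans (by rw [hbase, Subgroup.map_bot]))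
    exact (derived_iso (MonoidHom.ofInjective hinj |>.trans (P₀.equiv R)) _).mp hW
  · set t := Nat.log 2 n
    have hle : 2 ^ t ≤ n := Nat.pow_log_le_self 2 (by omega)
    have hD1 : derivedSeries (QuaternionGroup (2 ^ k)) 1 ≠ ⊥ := (quaternion_derived k hk).1
    haveI : NeZero (2 ^ k) := ⟨by positivity⟩
    obtain ⟨H, _, _, f, hf, hH, hne⟩ :=
      exists_deep (QuaternionGroup (2 ^ k)) (D.2.of_equiv e) hD1 t
    let ι : Fin (2 ^ t) ↪ Fin n := Fin.castLEEmb hle
    let toW : MonG (QuaternionGroup (2 ^ k)) (Fin n) →*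
        (Fin n → Ds) ⋊[powAct Ds ⊤] (⊤ : Subgroup (Equiv.Perm (Fin n))) :=
      MonoidHom.mk' (fun g => ⟨fun i => e.symm (g.left i), ⟨g.right, Subgroup.mem_top _⟩⟩) fun a b =>
        SemidirectProduct.ext (funext fun i => map_mul e.symm _ _) rfl
    have htoW : Function.Injective toW := fun a b h =>
      SemidirectProduct.ext (funext fun i => e.symm.injective (congrFun (congrArg SemidirectProduct.left h) i))
        (congrArg (fun z : (Fin n → Ds) ⋊[powAct Ds ⊤] (⊤ : Subgroup (Equiv.Perm (Fin n))) =>
          (z.right : Equiv.Perm (Fin n))) h)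
    set g := (spBlockHom Ds ⊤).comp (toW.comp ((monEmb ι).comp f)) with hg
    have hginj : Function.Injective g :=
      (spBlockHom_injective Ds ⊤).comp (htoW.comp ((monEmb_injective ι).comp hf))
    have hR : IsPGroup 2 g.range := hH.of_surjective _ g.rangeRestrict_surjective
    obtain ⟨Q, hQ⟩ := hR.exists_le_sylow
    let ψ : H →* R.toSubgroup :=
      (Q.equiv R).toMonoidHom.comp ((Subgroup.inclusion hQ).comp g.rangeRestrict)
    have hψ : Function.Injective ψ :=
      (Q.equiv R).injective.comp ((Subgroup.inclusion_injective hQ).comp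
        fun a b h => hginj (congrArg Subtype.val h))
    intro h
    refine hne ((Subgroup.map_eq_bot_iff_of_injective _ hψ).mp (le_bot_iff.mp ?_))
    exact (map_derivedSeries_le_derivedSeries ψ (t + 1)).trans h.le

end Cfsg.Agent.KnownB.SpDerived
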