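import Cfsg.Agent.S4014

/-! Monomial groups over an arbitrary group and the derived length of their 2-subgroups. -/

set_option autoImplicit false

namespace Cfsg.Agent.KnownB.SpDerived

universe u v w

variable (A : Type u) [Group A] (Ω : Type v)

/-- Coordinate permutation as automorphisms of the base group. -/
def permAct : Equiv.Perm Ω →* MulAut (Ω → A) where
  toFun σ :=
    { toFun := fun f x => f (σ⁻¹ x)
      invFun := fun f x => f (σ x)
      left_inv := fun f => funext fun x => by simp
      right_inv := fun f => funext fun x => by simp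
      map_mul' := fun _ _ => rfl }
  map_one' := MulEquiv.ext fun f => funext fun x => by simp
  map_mul' σ τ := MulEquiv.ext fun f => funext fun x => by simp [Equiv.Perm.mul_apply]

@[simp] theorem permAct_apply (σ : Equiv.Perm Ω) (f : Ω → A) (x : Ω) :
    permAct A Ω σ f x = f (σ⁻¹ x) := rfl

/-- The monomial group `A ≀ Sym(Ω)`. -/
abbrev MonG : Type (max u v) := (Ω → A) ⋊[permAct A Ω] Equiv.Perm Ω

variable {A Ω}

/-- Monomial groups iterate under regular wreath products. -/
def monWreath {Q : Type w} [Group Q] : RegularWreathProduct (MonG A Ω) Q →* MonG A (Ω × Q) where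
  toFun m :=
    { left := fun x => (m.left x.2).left x.1
      right :=
        { toFun := fun x => ((m.left (m.right * x.2)).right x.1, m.right * x.2)
          invFun := fun x => ((m.left x.2).right⁻¹ x.1, m.right⁻¹ * x.2)
          left_inv := fun x => by simp
          right_inv := fun x => by simp } }
  map_one' := SemidirectProduct.ext (funext fun x => by simp) (Equiv.ext fun x => by simp)
  map_mul' a b := SemidirectProduct.ext
    (funext fun x => by simp [Equiv.Perm.inv_def])
    (Equiv.ext fun x => by simp [Equiv.Perm.mul_apply, mul_assoc])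

theorem monWreath_injective [Nonempty Ω] {Q : Type w} [Group Q] :
    Function.Injective (monWreath (A := A) (Ω := Ω) (Q := Q)) := by
  intro a b h
  have hl := congrArg SemidirectProduct.left h
  have hr := congrArg SemidirectProduct.right h
  obtain ⟨o⟩ := ‹Nonempty Ω›
  have hq : a.right = b.right := by
    have h2 := congrArg Prod.snd (Equiv.congr_fun hr (o, 1))
    simpa [monWreath] using h2
  refine RegularWreathProduct.ext (funext fun y => SemidirectProduct.ext (funext fun x => ?_) (Equiv.ext fun x => ?_)) hq
  · exact congrFun hl (x, y)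
  · have h2 := congrArg Prod.fst (Equiv.congr_fun hr (x, a.right⁻¹ * y))
    simp only [monWreath] at h2
    simpa [hq] using h2

/-- Changing the index set along an injection. -/
noncomputable def monEmb {Ω' : Type w} [DecidableEq Ω'] (ι : Ω ↪ Ω') : MonG A Ω →* MonG A Ω' where
  toFun m := ⟨Function.extend ι m.left 1, Equiv.Perm.viaEmbeddingHom ι m.right⟩
  map_one' := SemidirectProduct.ext (funext fun x => by
    by_cases hx : ∃ i, ι i = x
    · obtain ⟨i, rfl⟩ := hx; simp [ι.injective.extend_apply]
    · simp [Function.extend_apply' _ _ _ hx]) (map_one _)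
  map_mul' a b := SemidirectProduct.ext (funext fun x => by
    have hinv : (Equiv.Perm.viaEmbeddingHom ι a.right)⁻¹ = Equiv.Perm.viaEmbedding a.right⁻¹ ι := by
      rw [← map_inv]; rfl
    simp only [SemidirectProduct.mul_left, Pi.mul_apply, permAct_apply, hinv]
    by_cases hx : ∃ i, ι i = x
    · obtain ⟨i, rfl⟩ := hx
      rw [Equiv.Perm.viaEmbedding_apply]
      simp [ι.injective.extend_apply]
    · rw [Equiv.Perm.viaEmbedding_apply_of_notMem _ _ _ (fun ⟨i, hi⟩ => hx ⟨i, hi⟩)]
      simp [Function.extend_apply' _ _ _ hx]) (map_mul _ _ _)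

theorem monEmb_injective {Ω' : Type w} [DecidableEq Ω'] (ι : Ω ↪ Ω') :
    Function.Injective (monEmb (A := A) ι) := fun a b h =>
  SemidirectProduct.ext (funext fun i => by
    simpa [monEmb, ι.injective.extend_apply] using congrFun (congrArg SemidirectProduct.left h) (ι i))
    (Equiv.Perm.viaEmbeddingHom_injective ι (congrArg SemidirectProduct.right h))

/-- Monomial groups on `2 ^ t` letters have 2-subgroups of derived length `t + 2`. -/
theorem exists_deep (D : Type) [Group D] [Finite D] (hD : IsPGroup 2 D) (hD1 : derivedSeries D 1 ≠ ⊥) :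
    ∀ t : ℕ, ∃ (H : Type) (_ : Group H) (_ : Finite H) (f : H →* MonG D (Fin (2 ^ t))),
      Function.Injective f ∧ IsPGroup 2 H ∧ derivedSeries H (t + 1) ≠ ⊥ := by
  classical
  intro t
  induction t with
  | zero =>
    refine ⟨D, inferInstance, inferInstance,
      { toFun := fun d => ⟨fun _ => d, 1⟩
        map_one' := SemidirectProduct.ext rfl rfl
        map_mul' := fun a b => SemidirectProduct.ext (funext fun _ => rfl) (by simp) }, ?_, hD, hD1⟩
    exact fun a b h => congrFun (congrArg SemidirectProduct.left h) ⟨0, by simp⟩
  | succ t ih =>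
    obtain ⟨H, _, _, f, hf, hH, hne⟩ := ih
    set Q := Multiplicative (ZMod 2)
    have hQ : Nat.card Q = 2 := Nat.card_zmod 2
    haveI : Nontrivial Q := Finite.one_lt_card_iff_nontrivial.mp (hQ ▸ one_lt_two)
    haveI : Fintype Q := Fintype.ofFinite Q
    let f₁ : RegularWreathProduct H Q →* RegularWreathProduct (MonG D (Fin (2 ^ t))) Q :=
      { toFun := fun x => ⟨fun y => f (x.left y), x.right⟩
        map_one' := RegularWreathProduct.ext (funext fun y => map_one f) rfl
        map_mul' := fun a b => RegularWreathProduct.ext (funext fun y => map_mul f _ _) rfl }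
    let e : Fin (2 ^ t) × Q ≃ Fin (2 ^ (t + 1)) := Fintype.equivFinOfCardEq (by
      rw [Fintype.card_prod, Fintype.card_fin, ← Nat.card_eq_fintype_card, hQ, pow_succ])
    haveI : Finite (RegularWreathProduct H Q) :=
      Finite.of_injective (fun x => (x.left, x.right)) fun a b h =>
        RegularWreathProduct.ext (congrArg Prod.fst h) (congrArg Prod.snd h)
    haveI : Nonempty (Fin (2 ^ t)) := ⟨⟨0, by positivity⟩⟩
    refine ⟨RegularWreathProduct H Q, inferInstance, inferInstance,
      (monEmb e.toEmbedding).comp (monWreath.comp f₁), ?_, ?_, ?_⟩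
    · show Function.Injective ((monEmb e.toEmbedding) ∘ (monWreath ∘ f₁))
      refine (monEmb_injective _).comp (monWreath_injective.comp fun a b h => ?_)
      exact RegularWreathProduct.ext (funext fun y => hf (congrFun (congrArg RegularWreathProduct.left h) y))
        (congrArg (fun z : RegularWreathProduct (MonG D (Fin (2 ^ t))) Q => z.right) h)
    · haveI := Fact.mk Nat.prime_two
      obtain ⟨j, hj⟩ := IsPGroup.iff_card.mp hH
      refine IsPGroup.of_card (n := j * 2 + 1) ?_
      rw [RegularWreathProduct.card, hQ, hj, ← pow_mul, ← pow_succ]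
    · intro h
      refine hne ((Subgroup.eq_bot_iff_forall _).mpr fun w hw => ?_)
      obtain ⟨x, hx, -, rfl⟩ := Cfsg.Agent.S4014.derived_le_base (Q := Q) (t + 1) w hw
      rw [h, Subgroup.mem_bot] at hx
      subst hx; rfl

end Cfsg.Agent.KnownB.SpDerived
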